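import Mathlib

/-!
# Arithmetic for a dihedral Sylow 2-subgroup of order eight with a self-centralising element

`x` is the degree of the principal block member with value `δ` at the rotations, `u`, `v` the signed
degrees of the other two, `a`, `b` the orders of the two parts of the odd core of the centraliser
of an involution.
-/

set_option autoImplicit false

namespace CfsgLib.CentFour

/-- The data from the characters. -/
structure ArithData (g a b x : ℕ) (δ u v : ℤ) : Prop where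
  eight : 8 ∣ g
  sixteen : ¬ 16 ∣ g
  odd_a : Odd a
  odd_b : Odd b
  sign : δ = 1 ∨ δ = -1
  one_lt : 1 < x
  x_mod : ((x : ℤ) - δ) % 4 = 0
  u_mod : u % 4 = 3
  v_mod : v % 4 = 3
  u_ne : u ≠ -1
  v_ne : v ≠ -1
  degrees : u + v = -(1 + δ * x)
  order : (g : ℤ) * ((x : ℤ) - δ) ^ 2 = 64 * a * b * (a + b : ℤ) ^ 2 * x * (x + δ)
  count : (g : ℚ) * (1 + (δ : ℚ) / x + 1 / u + 1 / v) = 256 * (a : ℚ) ^ 2 * (b : ℚ) ^ 2
  bound : 1 < a → (δ = 1 → 9 ≤ x) ∧ (δ = -1 → 11 ≤ x) ∧ (11 ≤ u ∨ u ≤ -9) ∧ (11 ≤ v ∨ v ≤ -9)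

variable {g a b x : ℕ} {δ u v : ℤ}

/-- Eliminating the order of the group. -/
theorem ArithData.identity (d : ArithData g a b x δ u v) :
    ((a : ℤ) + b) ^ 2 * (x + δ) ^ 2 * ((u + 1) * (v + 1)) =
      4 * a * b * (x - δ) ^ 2 * (u * v) := by
  have hu : (u : ℚ) ≠ 0 := by
    have := d.u_mod
    exact_mod_cast (show u ≠ 0 by omega)
  have hv : (v : ℚ) ≠ 0 := by
    have := d.v_mod
    exact_mod_cast (show v ≠ 0 by omega)
  have hx : (x : ℚ) ≠ 0 := by
    have := d.one_lt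
    exact_mod_cast (show x ≠ 0 by omega)
  have hord : (g : ℚ) * ((x : ℚ) - δ) ^ 2 = 64 * a * b * ((a : ℚ) + b) ^ 2 * x * (x + δ) := by
    exact_mod_cast d.order
  have hdeg : (u : ℚ) + v = -(1 + δ * x) := by exact_mod_cast d.degrees
  have hcnt := d.count
  have hδ : (δ : ℚ) ^ 2 = 1 := by rcases d.sign with rfl | rfl <;> norm_num
  have key : ((a : ℚ) + b) ^ 2 * (x + δ) ^ 2 * ((u + 1) * (v + 1)) =
      4 * a * b * (x - δ) ^ 2 * (u * v) := by
    have ha : (a : ℚ) ≠ 0 := by exact_mod_cast d.odd_a.pos.ne'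
    have hb : (b : ℚ) ≠ 0 := by exact_mod_cast d.odd_b.pos.ne'
    field_simp at hcnt
    refine mul_left_cancel₀ (a := 64 * (a : ℚ) * b * x) (by positivity) ?_
    have e : (u : ℚ) * v * x + δ * (u * v) + x * v + x * u =
        (x + δ) * (u * v + u + v + 1) := by
      linear_combination (-(δ : ℚ)) * hdeg + (x : ℚ) * hδ
    linear_combination ((x : ℚ) - δ) ^ 2 * hcnt - (u * v * x + δ * (u * v) + x * v + x * u) * hord -
      64 * (a : ℚ) * b * x * ((a : ℚ) + b) ^ 2 * (x + δ) * e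
  exact_mod_cast key

/-- The main inequality. -/
theorem ArithData.ineq (d : ArithData g a b x δ u v) (ha : 1 < a) :
    64 * ((a : ℤ) + b) ^ 2 * (x + δ) ^ 2 ≤ 324 * a * b * (x - δ) ^ 2 := by
  obtain ⟨-, -, hu, hv⟩ := d.bound ha
  have hid : ((a : ℚ) + b) ^ 2 * (x + δ) ^ 2 * ((u + 1) * (v + 1)) =
      4 * a * b * (x - δ) ^ 2 * (u * v) := by exact_mod_cast d.identity
  have low : ∀ w : ℤ, (11 ≤ w ∨ w ≤ -9) → (8 / 9 : ℚ) ≤ ((w : ℚ) + 1) / w ∧ (w : ℚ) ≠ 0 := by
    intro w hw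
    rcases hw with h | h
    · have : (11 : ℚ) ≤ w := by exact_mod_cast h
      exact ⟨by rw [le_div_iff₀ (by linarith)]; linarith, by linarith⟩
    · have : (w : ℚ) ≤ -9 := by exact_mod_cast h
      exact ⟨by rw [le_div_iff_of_neg (by linarith)]; linarith, by linarith⟩
  obtain ⟨lu, hu0⟩ := low u hu
  obtain ⟨lv, hv0⟩ := low v hv
  have hp : (8 / 9 : ℚ) * (8 / 9) ≤ ((u : ℚ) + 1) / u * (((v : ℚ) + 1) / v) :=
    mul_le_mul lu lv (by norm_num) (le_trans (by norm_num) lu)
  have he : ((a : ℚ) + b) ^ 2 * (x + δ) ^ 2 * (((u : ℚ) + 1) / u * (((v : ℚ) + 1) / v)) =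
      4 * a * b * (x - δ) ^ 2 := by
    rw [div_mul_div_comm, ← mul_div_assoc, div_eq_iff (mul_ne_zero hu0 hv0)]
    exact hid
  have h := mul_le_mul_of_nonneg_left hp
    (show (0 : ℚ) ≤ ((a : ℚ) + b) ^ 2 * (x + δ) ^ 2 by positivity)
  rw [he] at h
  have : (((64 * ((a : ℤ) + b) ^ 2 * (x + δ) ^ 2 : ℤ)) : ℚ) ≤
      ((324 * a * b * (x - δ) ^ 2 : ℤ) : ℚ) := by
    push_cast
    linarith
  exact_mod_cast this

/-- `x ≡ δ` modulo eight. -/
theorem ArithData.x_mod_eight (d : ArithData g a b x δ u v) : ((x : ℤ) - δ) % 8 = 0 := by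
  by_contra h
  obtain ⟨c, hc⟩ : (4 : ℤ) ∣ (x : ℤ) - δ := Int.dvd_of_emod_eq_zero d.x_mod
  have hco : Odd c := by rw [Int.odd_iff]; omega
  obtain ⟨g', rfl⟩ := d.eight
  have hg' : Odd (g' : ℤ) := by
    rw [Int.odd_iff]
    have := d.sixteen
    omega
  obtain ⟨k, hk⟩ : (2 : ℤ) ∣ (a : ℤ) + b := by
    obtain ⟨i, hi⟩ := d.odd_a
    obtain ⟨j, hj⟩ := d.odd_b
    exact ⟨i + j + 1, by omega⟩
  have e := d.order
  rw [hc, hk] at e
  push_cast at e
  have h2 : (g' : ℤ) * c ^ 2 = 2 * (a * b * k ^ 2 * x * (x + δ)) := by linarith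
  exact (Int.not_even_iff_odd.2 (hg'.mul hco.pow)) ⟨a * b * k ^ 2 * x * (x + δ), by rw [h2]; ring⟩

/-- When `δ = 1` the degree is at least seventeen. -/
theorem ArithData.le_of_pos (d : ArithData g a b x δ u v) (ha : 1 < a) (hδ : δ = 1) : 17 ≤ x := by
  subst hδ
  have h9 := (d.bound ha).1 rfl
  have h8 := d.x_mod_eight
  by_contra h
  obtain rfl : x = 9 := by omega
  have hi := d.ineq ha
  have : (0 : ℤ) < a := by exact_mod_cast d.odd_a.pos
  have : (0 : ℤ) < b := by exact_mod_cast d.odd_b.pos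
  norm_num at hi
  nlinarith [sq_nonneg ((a : ℤ) - b)]

/-- When `δ = -1` the degree is at least fifteen. -/
theorem ArithData.le_of_neg (d : ArithData g a b x δ u v) (ha : 1 < a) (hδ : δ = -1) : 15 ≤ x := by
  subst hδ
  have := (d.bound ha).2.1 rfl
  have := d.x_mod_eight
  omega

/-- One part of the core trivial: the order of the alternating group of degree seven. -/
theorem arith_one (d : ArithData g a 1 x δ u v) (ha : 1 < a) : g = 2520 := by
  have hi := d.ineq ha
  have h8 := d.x_mod_eight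
  have ho := d.order
  obtain ⟨i, hi'⟩ := d.odd_a
  have ha3 : (3 : ℤ) ≤ a := by omega
  obtain ⟨g', rfl⟩ := d.eight
  have h16 := d.sixteen
  rcases d.sign with rfl | rfl
  · exfalso
    have h17 : (17 : ℤ) ≤ x := by exact_mod_cast d.le_of_pos ha rfl
    push_cast at hi
    have h1 : ((x : ℤ) - 1) ^ 2 ≤ (x + 1) ^ 2 := by nlinarith
    have h2 : (16 : ℤ) * ((a : ℤ) + 1) ^ 2 ≤ 81 * a := by
      by_contra hcon
      push Not at hcon
      nlinarith [mul_lt_mul_of_pos_right hcon (show (0 : ℤ) < ((x : ℤ) - 1) ^ 2 by nlinarith),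
        mul_le_mul_of_nonneg_left h1 (show (0 : ℤ) ≤ 64 * ((a : ℤ) + 1) ^ 2 by positivity)]
    nlinarith
  · have h15 : (15 : ℤ) ≤ x := by exact_mod_cast d.le_of_neg ha rfl
    push_cast at hi ho
    have h1 : 49 * ((x : ℤ) + 1) ^ 2 ≤ 64 * ((x : ℤ) - 1) ^ 2 := by nlinarith
    have h2 : (49 : ℤ) * ((a : ℤ) + 1) ^ 2 ≤ 324 * a := by
      by_contra hcon
      push Not at hcon
      nlinarith [mul_lt_mul_of_pos_right hcon (show (0 : ℤ) < ((x : ℤ) + 1) ^ 2 by nlinarith),
        mul_le_mul_of_nonneg_left h1 (show (0 : ℤ) ≤ ((a : ℤ) + 1) ^ 2 by positivity)]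
    have ha4 : (a : ℤ) < 5 := by nlinarith
    obtain rfl : a = 3 := by omega
    norm_num at hi ho
    have hx : x ≤ 77 := by
      have : (x : ℤ) ≤ 77 := by nlinarith
      exact_mod_cast this
    have hx15 : 15 ≤ x := by exact_mod_cast h15
    interval_cases x <;> omega

/-- The factor relating the order to the cube of the core. -/
theorem ArithData.factor_bounds (d : ArithData g a b x δ u v) (ha : 1 < a) :
    256 * ((x : ℤ) * (x + δ)) ≤ 306 * (x - δ) ^ 2 ∧
      210 * ((x : ℤ) - δ) ^ 2 ≤ 256 * (x * (x + δ)) := by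
  rcases d.sign with rfl | rfl
  · have : (17 : ℤ) ≤ x := by exact_mod_cast d.le_of_pos ha rfl
    constructor <;> nlinarith
  · have : (15 : ℤ) ≤ x := by exact_mod_cast d.le_of_neg ha rfl
    constructor <;> nlinarith

/-- Both parts non-trivial is impossible. -/
theorem arith_both {h n : ℕ} (d : ArithData g a b x δ u v) (ha : 1 < a) (hab : a ≤ b)
    (hh : h = 12 * a * b ^ 3 ∨ 160 * a * b ^ 3 < 7 * h) (hn : g = 2 * h * n)
    (hf : g ∣ n.factorial) : False := by
  obtain ⟨hup, hlow⟩ := d.factor_bounds ha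
  have hxd : (0 : ℤ) < (x - δ) ^ 2 := by
    have := d.one_lt
    rcases d.sign with rfl | rfl <;> · have : (2 : ℤ) ≤ x := by omega
                                       nlinarith
  have ho := d.order
  obtain ⟨i, hi⟩ := d.odd_a
  obtain ⟨j, hj⟩ := d.odd_b
  have A3 : (3 : ℤ) ≤ a := by omega
  have B3 : (3 : ℤ) ≤ b := by omega
  have AB : (a : ℤ) ≤ b := by exact_mod_cast hab
  have h4 : ((a : ℤ) + b) ^ 2 ≤ 4 * (b : ℤ) ^ 2 := by nlinarith
  -- the group is not small
  have hbig : 17000 < g := by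
    have h36 : (36 : ℤ) ≤ (a + b) ^ 2 := by nlinarith
    have h9 : (9 : ℤ) ≤ a * b := by nlinarith
    have h5 : (20736 : ℤ) ≤ 64 * a * b * (a + b) ^ 2 := by nlinarith
    have : (17000 : ℤ) < g := by
      by_contra hcon
      push Not at hcon
      nlinarith [mul_le_mul_of_nonneg_right hcon hxd.le,
        mul_le_mul_of_nonneg_left hlow (show (0 : ℤ) ≤ 64 * a * b * (a + b) ^ 2 by positivity),
        mul_le_mul_of_nonneg_right h5 hxd.le]
    exact_mod_cast this
  have hupper : (256 : ℤ) * g ≤ 306 * 256 * (a * b ^ 3) := by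
    refine le_of_mul_le_mul_right ?_ hxd
    calc (256 : ℤ) * g * (x - δ) ^ 2 = 64 * a * b * (a + b) ^ 2 * (256 * (x * (x + δ))) := by
          rw [mul_assoc, ho]; ring
      _ ≤ 64 * a * b * (4 * b ^ 2) * (306 * (x - δ) ^ 2) :=
          mul_le_mul (mul_le_mul_of_nonneg_left h4 (by positivity)) hup
            (by nlinarith) (by positivity)
      _ = 306 * 256 * (a * b ^ 3) * (x - δ) ^ 2 := by ring
  have hab3 : (0 : ℤ) < a * b ^ 3 := by positivity
  have hgz : (g : ℤ) = 2 * h * n := by exact_mod_cast hn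
  rcases hh with hh | hh
  swap
  · have hhz : (160 : ℤ) * a * b ^ 3 < 7 * h := by exact_mod_cast hh
    have hn6 : n ≤ 6 := by
      by_contra hcon
      have : (7 : ℤ) ≤ n := by omega
      nlinarith
    have := Nat.le_of_dvd (Nat.factorial_pos n) hf
    have := Nat.factorial_le hn6
    norm_num [Nat.factorial] at this
    omega
  have hhz : (h : ℤ) = 12 * a * b ^ 3 := by exact_mod_cast hh
  have hn12 : n ≤ 12 := by
    by_contra hcon
    have : (13 : ℤ) ≤ n := by omega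
    nlinarith
  have hdvd : b ^ 3 ∣ 1024 * 467775 := by
    have h1 := hf.trans (Nat.factorial_dvd_factorial hn12)
    rw [show Nat.factorial 12 = 1024 * 467775 by norm_num [Nat.factorial]] at h1
    refine Dvd.dvd.trans ⟨2 * 12 * a * n, ?_⟩ h1
    rw [hn, hh]; ring
  have hb3 : b = 3 := by
    have h2 : b ^ 3 ∣ 467775 := by
      refine Nat.Coprime.dvd_of_dvd_mul_left ?_ hdvd
      rw [show 1024 = 2 ^ 10 by norm_num]
      exact Nat.Coprime.pow _ _ (Nat.coprime_two_right.2 d.odd_b)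
    have hb77 : b < 78 := by
      by_contra hcon
      have := Nat.le_of_dvd (by norm_num) h2
      have := Nat.pow_le_pow_left (show 78 ≤ b by omega) 3
      omega
    have : ∀ c < 78, c ^ 3 ∣ 467775 → c = 1 ∨ c = 3 := by decide
    rcases this b hb77 h2 with e | e <;> omega
  subst hb3
  obtain rfl : a = 3 := by omega
  subst hh
  -- the degree is `8 + δ`
  obtain ⟨c, hc⟩ : (8 : ℤ) ∣ (x : ℤ) - δ := Int.dvd_of_emod_eq_zero d.x_mod_eight
  have hx : (x : ℤ) = 8 * c + δ := by omega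
  rw [hgz, hc] at ho
  push_cast at ho
  have h6 : (x : ℤ) * (x + δ) = 6 * n * c ^ 2 := by linarith
  rw [hx] at h6
  have hδ2 : δ * δ = 1 := by rcases d.sign with rfl | rfl <;> norm_num
  have hc2 : c ∣ 2 := ⟨6 * n * c - 64 * c - 24 * δ, by linear_combination h6 - 2 * hδ2⟩
  have hc1 : 1 ≤ c := by
    have := d.one_lt
    rcases d.sign with rfl | rfl <;> omega
  have := Int.le_of_dvd two_pos hc2
  rcases (show c = 1 ∨ c = 2 by omega) with rfl | rfl <;> rcases d.sign with rfl | rfl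
  · have := d.le_of_pos ha rfl; omega
  · have := d.le_of_neg ha rfl; omega
  · omega
  · have := d.le_of_neg ha rfl; omega

end CfsgLib.CentFour
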