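import Cfsg.Agent.FusionTwo.Dihedral
import Cfsg.Agent.FusionTwo.DihedralCases

/-!
# Simple groups with a small centraliser: the remaining configuration

`Hyp w τ`: a Sylow 2-subgroup is dihedral of order 8 with rotation `w`, the centraliser of `w` is
`⟨w⟩` and all involutions are conjugate.
-/

set_option autoImplicit false

namespace CfsgLib.CentFour

open CfsgLib.FusionTwo

universe u

variable {G : Type u} [Group G]

/-- The configuration left over by the elementary reductions. -/
structure Hyp (w τ : G) : Prop where
  sylow : ∃ S : Sylow 2 G, IsDihGen (S : Subgroup G) 2 w τ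
  cent : ∀ g : G, g * w = w * g → g ∈ Subgroup.zpowers w
  one : ∀ u : G, orderOf u = 2 → IsConj (w ^ ((2 : ℤ) ^ (2 - 1))) u

theorem commutative_false [Finite G] [IsSimpleGroup G] (hG : ¬ IsCyclic G)
    (h : ∀ a b : G, a * b = b * a) : False := by
  letI : CommGroup G := { (inferInstance : Group G) with mul_comm := h }
  exact hG IsSimpleGroup.isCyclic

theorem eq_bot_or_eq_top {H : Subgroup G} [IsSimpleGroup G] (hH : H.Normal) : H = ⊥ ∨ H = ⊤ :=
  hH.eq_bot_or_eq_top

theorem no_index_two [Finite G] [IsSimpleGroup G] (hG : ¬ IsCyclic G) (H : Subgroup G) :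
    H.index ≠ 2 := by
  intro h
  rcases eq_bot_or_eq_top (Subgroup.normal_of_index_eq_two h) with e | e
  · rw [e, Subgroup.index_bot] at h
    haveI : Fact (Nat.Prime 2) := ⟨Nat.prime_two⟩
    exact hG (isCyclic_of_prime_card h)
  · rw [e, Subgroup.index_top] at h
    omega

end CfsgLib.CentFour
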