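import Cfsg.Agent.CentFour.Local
import Cfsg.Agent.Chars.Basic.Linear
import Cfsg.Agent.Chars.Basic.Galois
import Cfsg.Agent.Blocks.Orth.Blocks
import Cfsg.Agent.S0840

/-!
# The characters not vanishing on the rotation of order four

* `column`: in the notation of `exists_charData`, only four characters are non-zero at `w`;
* `deg_bound`: lower bounds for the degrees of the non-trivial ones when `sideA` is non-trivial;
* `exists_charData`: the numerical conditions.
-/

set_option autoImplicit false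
set_option linter.style.haveILetI false

namespace CfsgLib.CentFour

open Cfsg CfsgLib.FusionTwo CfsgLib.Blocks CfsgLib.DihedralBlock

universe u

variable {G : Type u} [Group G] [Finite G] {w τ : G} {M : Ideal AlgInt}

theorem charDegree_ne_one [IsSimpleGroup G] (hG : ¬ IsCyclic G) {χ : IrrCharacter G}
    (hχ : χ ≠ Chars.oneChar G) : charDegree (χ : G → ℂ) ≠ 1 := fun h1 => by
  obtain ⟨l, rfl⟩ := Chars.exists_linChar_eq χ ((Chars.charDegree_eq_one_iff χ).1 h1)
  rw [Ne, Chars.linChar_eq_oneChar_iff] at hχ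
  rcases eq_bot_or_eq_top (inferInstance : l.ker.Normal) with hk | hk
  · exact commutative_false hG fun a b =>
      (MonoidHom.ker_eq_bot_iff l).1 hk (by rw [map_mul, map_mul, mul_comm])
  · exact hχ (MonoidHom.ker_eq_top_iff.1 hk)

theorem swap_sideB (h : Hyp w τ) : sideB w (w * τ) = sideA w τ := by
  ext r
  rw [Hyp.mem_sideA_iff, sideB, Subgroup.mem_inf, Subgroup.mem_centralizer_singleton_iff,
    ← mul_assoc w w τ]
  refine and_congr_right fun hr => ?_
  have hc := Hyp.commute_of_mem_core hr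
  constructor
  · intro e
    rw [← mul_assoc r, ← hc.eq, mul_assoc (w * w) r, mul_assoc (w * w) τ] at e
    exact (mul_left_cancel e).symm
  · intro e
    rw [← mul_assoc r, ← hc.eq, mul_assoc (w * w) r, e.symm.eq, ← mul_assoc]

theorem sum_four (h : Hyp w τ) (χ : IrrCharacter G) :
    ∃ q : ℕ, (χ : G → ℂ) 1 + 2 * (χ : G → ℂ) w + (χ : G → ℂ) (w * w) = 4 * q := by
  obtain ⟨S, d⟩ := h.sylow
  let f : Multiplicative (ZMod (2 ^ 2)) →* G :=
    { toFun := fun a => rot w a.toAdd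
      map_one' := rot_zero
      map_mul' := fun a b => rot_add d a.toAdd b.toAdd }
  obtain ⟨q, hq⟩ := exists_nat_sum_hom_mul' f (Chars.isCharacter_coe χ) 1
  refine ⟨q, ?_⟩
  have hcard : (Nat.card (Multiplicative (ZMod (2 ^ 2))) : ℂ) = 4 := by
    rw [Nat.card_congr Multiplicative.toAdd, Nat.card_zmod]; norm_num
  have e : ∑ a : Multiplicative (ZMod (2 ^ 2)), ((1 : _ →* ℂˣ) a : ℂ) * (χ : G → ℂ) (f a) =
      ∑ i : Fin 4, (χ : G → ℂ) (rot w ((i : ℕ) : ZMod (2 ^ 2))) := by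
    refine (Fintype.sum_bijective (fun i : Fin 4 =>
      Multiplicative.ofAdd ((i : ℕ) : ZMod (2 ^ 2))) (by decide) _ _ fun i => ?_).symm
    simp [f]
  rw [e, hcard, Fin.sum_univ_four] at hq
  have e3 : (χ : G → ℂ) (rot w ((3 : ℕ) : ZMod (2 ^ 2))) = (χ : G → ℂ) (rot w (1 : ZMod (2 ^ 2))) := by
    rw [show ((3 : ℕ) : ZMod (2 ^ 2)) = -1 from by decide]
    exact (Chars.eq_of_isConj (Chars.isClassFunction_coe χ) (isConj_rot_neg d 1)).symm
  simp only [Fin.val_zero, Fin.val_one, Fin.val_two, show ((3 : Fin 4) : ℕ) = 3 from rfl,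
    Nat.cast_zero, Nat.cast_one, rot_zero, e3] at hq
  rw [show ((2 : ℕ) : ZMod (2 ^ 2)) = half 2 from rfl, rot_half d, zpow_half,
    show rot w (1 : ZMod (2 ^ 2)) = w by
      rw [show (1 : ZMod (2 ^ 2)) = ((1 : ℤ) : ZMod (2 ^ 2)) from by simp, rot_intCast d, zpow_one]] at hq
  linear_combination hq

/-- A non-trivial character of the principal block taking the value `±1` at the involution is large
when the fixed part of the core is non-trivial. -/
theorem deg_bound [IsSimpleGroup G] (hG : ¬ IsCyclic G) (h : Hyp w τ) (hM : IsPModular 2 M)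
    (hA : sideA w τ ≠ ⊥) {χ : IrrCharacter G} (hχ : χ ∈ principalBlock M G)
    (hne : χ ≠ Chars.oneChar G) {ε : ℤ} (hv : (χ : G → ℂ) (w * w) = ε) :
    (ε = 1 → 9 ≤ charDegree (χ : G → ℂ)) ∧ (ε = -1 → 11 ≤ charDegree (χ : G → ℂ)) := by
  classical
  by_cases hε : ε = 1 ∨ ε = -1
  swap
  · exact ⟨fun e => absurd (Or.inl e) hε, fun e => absurd (Or.inr e) hε⟩
  haveI : Fact (Nat.Prime 2) := ⟨Nat.prime_two⟩
  haveI := isMaximal_of_isPModular hM
  set A := sideA w τ with hAdef
  haveI := Fintype.ofFinite A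
  haveI : IsMulCommutative A := ⟨⟨fun a b => Subtype.ext
    (h.core_comm (Hyp.mem_sideA_iff.1 a.2).1 (Hyp.mem_sideA_iff.1 b.2).1).eq⟩⟩
  obtain ⟨U, hU, -, hiff⟩ := h.exists_four
  haveI := Fintype.ofFinite U
  have htz : ∀ r ∈ A, (χ : G → ℂ) (w * w * r) = ε := fun r hr => by
    rw [← hv]
    exact ZStar.apply_mul_eq_apply hM ⟨1, by rw [h.ot, pow_one]⟩ (Hyp.mem_sideA_iff.1 hr).1 hχ
  obtain ⟨⟨k, hk, hkt⟩, k', hk', hkt'⟩ := h.fused
  have hconj : ∀ {m v : G}, m ∈ Subgroup.centralizer (A : Set G) → m * (w * w) * m⁻¹ = v →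
      ∀ r ∈ A, (χ : G → ℂ) (v * r) = ε := fun {m v} hm hmv r hr => by
    rw [← htz r hr]
    refine (Chars.eq_of_isConj (Chars.isClassFunction_coe χ) (isConj_iff.2 ⟨m, ?_⟩)).symm
    calc m * (w * w * r) * m⁻¹ = m * (w * w) * m⁻¹ * (m * r * m⁻¹) := by group
      _ = v * r := by rw [hmv, ← Subgroup.mem_centralizer_iff.1 hm r hr, mul_inv_cancel_right]
  have hUval : ∀ v : U, v ≠ 1 → ∀ r : A, (χ : G → ℂ) ((v : G) * r) = ε := by
    intro v hv1 r
    rcases (hiff v).1 v.2 with e | e | e | e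
    · exact absurd (Subtype.ext e) hv1
    · rw [e]; exact htz r r.2
    · rw [e]; exact hconj hk hkt r r.2
    · rw [e]; exact hconj hk' hkt' r r.2
  let f : U × A →* G :=
    { toFun := fun p => (p.1 : G) * p.2
      map_one' := by simp
      map_mul' := fun p q => by
        have hc : Commute (q.1 : G) (p.2 : G) :=
          (Subgroup.mem_centralizer_iff.1 (h.four_le hiff q.1.2) p.2 p.2.2).symm
        simp only [Prod.fst_mul, Prod.snd_mul, Subgroup.coe_mul]
        rw [mul_assoc (p.1 : G) q.1, ← mul_assoc (q.1 : G) p.2, hc.eq]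
        simp only [mul_assoc] }
  have hcardA : (Nat.card A : ℂ) ≠ 0 := Nat.cast_ne_zero.2 Nat.card_pos.ne'
  have hsum : ∀ ν : A →* ℂˣ, ∃ m : ℕ, ∑ r : A, (ν r : ℂ) * (χ : G → ℂ) r +
      3 * (ε : ℂ) * ∑ r : A, (ν r : ℂ) = 4 * (Nat.card A : ℂ) * m := by
    intro ν
    obtain ⟨m, hm⟩ := exists_nat_sum_hom_mul' f (Chars.isCharacter_coe χ) (ν.comp (MonoidHom.snd U A))
    refine ⟨m, ?_⟩
    rw [Nat.card_prod, hU.card_four, Fintype.sum_prod_type,
      ← Finset.add_sum_erase _ _ (Finset.mem_univ (1 : U))] at hm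
    have e : ∀ v ∈ (Finset.univ : Finset U).erase 1,
        ∑ r : A, ((ν.comp (MonoidHom.snd U A)) (v, r) : ℂ) * (χ : G → ℂ) (f (v, r)) =
          (ε : ℂ) * ∑ r : A, (ν r : ℂ) := fun v hv => by
      rw [Finset.mul_sum]
      refine Finset.sum_congr rfl fun r _ => ?_
      show (ν r : ℂ) * (χ : G → ℂ) ((v : G) * r) = _
      rw [hUval v (Finset.ne_of_mem_erase hv) r, mul_comm]
    rw [Finset.sum_congr rfl e, Finset.sum_const, Finset.card_erase_of_mem (Finset.mem_univ _),
      Finset.card_univ, ← Nat.card_eq_fintype_card, hU.card_four, nsmul_eq_mul] at hm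
    simp only [f, MonoidHom.coe_mk, OneHom.coe_mk, OneMemClass.coe_one, one_mul,
      MonoidHom.coe_comp, Function.comp_apply, MonoidHom.coe_snd] at hm
    push_cast at hm
    linear_combination hm
  set g : A → ℂ := fun r => (χ : G → ℂ) r with hg
  have hgchar : IsCharacter A g := Chars.isCharacter_comp (Chars.isCharacter_coe χ) A.subtype
  have hgclass : IsClassFunction A g := Chars.isClassFunction_of_isCharacter hgchar
  choose n hn using fun ψ : IrrCharacter A => Chars.exists_nat_classInner hgchar ψ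
  have hν : ∀ ψ : IrrCharacter A, ∃ ν : A →* ℂˣ, ∀ r, (ν r : ℂ) = starRingEnd ℂ ((ψ : A → ℂ) r) := by
    intro ψ
    obtain ⟨l, hl⟩ := Chars.exists_linChar_eq (Chars.conjChar ψ)
      (Chars.map_one_eq_one_of_isMulCommutative _)
    exact ⟨l, fun r => by rw [← Chars.linChar_apply, hl, Chars.conjChar_apply]⟩
  have hcoef : ∀ ψ : IrrCharacter A, ∃ m : ℕ,
      (n ψ : ℤ) + 3 * ε * (if ψ = Chars.oneChar A then 1 else 0) = 4 * m := by
    intro ψ
    obtain ⟨ν, hνψ⟩ := hν ψ
    obtain ⟨m, hm⟩ := hsum ν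
    refine ⟨m, ?_⟩
    have e1 : ∑ r : A, (ν r : ℂ) * (χ : G → ℂ) r = (Nat.card A : ℂ) * n ψ := by
      rw [← hn ψ, classInner, ← mul_assoc, mul_inv_cancel₀ hcardA, one_mul]
      exact Finset.sum_congr rfl fun r _ => by rw [hνψ, mul_comm]
    have e2 : ∑ r : A, (ν r : ℂ) = (Nat.card A : ℂ) * (if ψ = Chars.oneChar A then 1 else 0) := by
      have := Chars.classInner_irr (Chars.oneChar A) ψ
      rw [classInner, inv_mul_eq_iff_eq_mul₀ hcardA] at this
      simp only [Chars.oneChar_apply, one_mul, ← hνψ, eq_comm (a := Chars.oneChar A)] at this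
      exact this
    rw [e1, e2] at hm
    have h1 : (((n ψ : ℤ) + 3 * ε * (if ψ = Chars.oneChar A then 1 else 0) : ℤ) : ℂ) =
        ((4 * (m : ℤ) : ℤ) : ℂ) := by
      refine mul_left_cancel₀ hcardA ?_
      push_cast
      linear_combination hm
    exact_mod_cast h1
  set d := charDegree (χ : G → ℂ) with hd
  have hdsum : d = ∑ ψ : IrrCharacter A, n ψ := by
    have h1 := Chars.eq_sum_classInner_mul hgclass 1
    simp only [hn, Chars.map_one_eq_one_of_isMulCommutative, mul_one] at h1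
    simp only [hg, OneMemClass.coe_one] at h1
    rw [← Chars.coe_charDegree χ] at h1
    exact_mod_cast h1
  have hinv : ∀ r : A, g r⁻¹ = g r := fun r => by
    refine (Chars.eq_of_isConj (Chars.isClassFunction_coe χ) (isConj_iff.2 ⟨w, ?_⟩)).symm
    simp only [Subgroup.coe_inv]
    exact h.inverts (Hyp.mem_sideA_iff.1 r.2).1
  have hnconj : ∀ ψ : IrrCharacter A, n (Chars.conjChar ψ) = n ψ := by
    intro ψ
    have h1 : classInner g (Chars.conjChar ψ : A → ℂ) = classInner g (ψ : A → ℂ) := by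
      rw [classInner, classInner]
      congr 1
      refine Fintype.sum_equiv (Equiv.inv A) _ _ fun r => ?_
      rw [Equiv.inv_apply, hinv, Chars.conjChar_apply, Chars.map_inv_eq_conj (Chars.isCharacter_coe ψ)]
    rw [hn, hn] at h1
    exact_mod_cast h1
  -- some non-trivial constituent occurs
  obtain ⟨ψ, hψ1, hψn⟩ : ∃ ψ : IrrCharacter A, ψ ≠ Chars.oneChar A ∧ n ψ ≠ 0 := by
    by_contra hno
    push Not at hno
    have hconst : ∀ r : A, g r = g 1 := fun r => by
      rw [Chars.eq_sum_classInner_mul hgclass r, Chars.eq_sum_classInner_mul hgclass 1]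
      refine Finset.sum_congr rfl fun ψ _ => ?_
      by_cases h1 : ψ = Chars.oneChar A
      · rw [h1, Chars.oneChar_apply, Chars.oneChar_apply]
      · rw [hn, hno ψ h1, Nat.cast_zero, zero_mul, zero_mul]
    have hle : A ≤ Chars.charKer (χ : G → ℂ) := fun r hr =>
      (Chars.mem_charKer_iff (Chars.isCharacter_coe χ)).2 (by simpa [hg] using hconst ⟨r, hr⟩)
    rcases eq_bot_or_eq_top (inferInstance : (Chars.charKer (χ : G → ℂ)).Normal) with hk | hk
    · exact hA (le_bot_iff.1 (hk ▸ hle))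
    · have h1 := Chars.map_eq_map_one_of_mem_charKer (hk.symm ▸ Subgroup.mem_top (w * w) :
        w * w ∈ Chars.charKer (χ : G → ℂ))
      rw [hv, ← Chars.coe_charDegree χ] at h1
      have h2 : ε = (d : ℤ) := by exact_mod_cast h1
      have hne1 := charDegree_ne_one hG hne
      rw [← hd] at hne1
      have hpos : 0 < d := Chars.charDegree_pos χ
      omega
  have hψψ : ψ ≠ Chars.conjChar ψ := by
    intro e
    refine hψ1 ((Chars.eq_oneChar_iff ψ).2 (funext fun r => ?_))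
    obtain ⟨l, hl⟩ := Chars.exists_linChar_eq ψ (Chars.map_one_eq_one_of_isMulCommutative _)
    obtain ⟨j, hj⟩ := exists_pow_eq_self_of_coprime (x := r) (n := 2)
      (Nat.prime_two.coprime_iff_not_dvd.2 (by
        rw [← Subgroup.orderOf_coe]; exact Hyp.odd_of_mem_core (Hyp.mem_sideA_iff.1 r.2).1))
    have hsq : ∀ q : A, (l (q * q) : ℂ) = 1 := fun q => by
      have h2 : (l q : ℂ) = (l q⁻¹ : ℂ) := by
        rw [← Chars.linChar_apply, ← Chars.linChar_apply, hl,
          Chars.map_inv_eq_conj (Chars.isCharacter_coe ψ)]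
        nth_rw 1 [e]
        rfl
      rw [map_mul, Units.val_mul]
      nth_rw 2 [h2]
      rw [← Units.val_mul, ← map_mul, mul_inv_cancel, map_one, Units.val_one]
    rw [← hl, Chars.linChar_apply, ← hj, ← pow_mul, two_mul, pow_add]
    exact hsq _
  obtain ⟨m, hm⟩ := hcoef ψ
  rw [if_neg hψ1] at hm
  have hψ' : Chars.conjChar ψ ≠ Chars.oneChar A := fun e => hψψ (by
    rw [e, ← Chars.conjChar_conjChar ψ, e]
    exact ((Chars.eq_oneChar_iff _).2 (funext fun r => by simp)))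
  have hle : n (Chars.oneChar A) + (n ψ + n (Chars.conjChar ψ)) ≤ d := by
    rw [hdsum]
    refine le_of_eq_of_le ?_ (Finset.sum_le_sum_of_subset
      (Finset.subset_univ {Chars.oneChar A, ψ, Chars.conjChar ψ}))
    rw [Finset.sum_insert (by simp [hψ1.symm, hψ'.symm]), Finset.sum_pair hψψ]
  rw [hnconj] at hle
  obtain ⟨m0, hm0⟩ := hcoef (Chars.oneChar A)
  rw [if_pos rfl] at hm0
  constructor <;> rintro rfl <;> omega

/-- The numerical conditions on the degree `x` of the exceptional character, its sign `δ` and the signed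
degrees `u`, `v`, for a group of order `g` with core parts of orders `a`, `b`. -/
structure CharFacts (g a b x : ℕ) (δ u v : ℤ) : Prop where
  sign : δ = 1 ∨ δ = -1
  one_lt : 1 < x
  x_mod : ((x : ℤ) - δ) % 4 = 0
  u_mod : u % 4 = 3
  v_mod : v % 4 = 3
  u_ne : u ≠ -1
  v_ne : v ≠ -1
  degrees : u + v = -(1 + δ * x)
  order : (g : ℤ) * ((x : ℤ) - δ) ^ 2 = 64 * a * b * (a + b : ℤ) ^ 2 * x * (x + δ)
  count : (g : ℚ) * (1 + (δ : ℚ) / x + 1 / u + 1 / v) = 256 * (a : ℚ) ^ 2 * (b : ℚ) ^ 2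
  bound : 1 < a → (δ = 1 → 9 ≤ x) ∧ (δ = -1 → 11 ≤ x) ∧ (11 ≤ u ∨ u ≤ -9) ∧ (11 ≤ v ∨ v ≤ -9)

theorem card_pairs (h : Hyp w τ) :
    Nat.card {p : G × G // IsConj (w * w) p.1 ∧ IsConj (w * w) p.2 ∧ p.1 * p.2 = w} = 4 := by
  obtain ⟨S, d⟩ := h.sylow
  have hτ : ∀ k : G, k ∈ Subgroup.zpowers w → IsConj (w * w) (k * τ) := fun k hk => by
    obtain ⟨i, rfl⟩ := Subgroup.mem_zpowers_iff.1 hk
    exact h.conj_t (d.orderOf_refl i)
  let f : Subgroup.zpowers w → {p : G × G // IsConj (w * w) p.1 ∧ IsConj (w * w) p.2 ∧ p.1 * p.2 = w} :=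
    fun k => ⟨((k : G) * τ, (k : G) * τ * w), hτ k k.2, by
      have := hτ ((k : G) * w⁻¹) (mul_mem k.2 (inv_mem (Subgroup.mem_zpowers w)))
      rwa [mul_assoc (k : G) w⁻¹, ← h.τw, ← mul_assoc] at this, by
      obtain ⟨i, hi⟩ := Subgroup.mem_zpowers_iff.1 k.2
      show (k : G) * τ * ((k : G) * τ * w) = w
      rw [← mul_assoc, ← hi, d.mul_self, one_mul]⟩
  rw [← Nat.card_eq_of_bijective f ⟨?_, ?_⟩, Nat.card_zpowers, h.ow]
  · rintro ⟨a, ha⟩ ⟨b, hb⟩ e
    exact Subtype.ext (mul_right_cancel (congrArg (fun q => q.1.1) e : a * τ = b * τ))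
  · rintro ⟨⟨p, q⟩, hp, hq, hpq⟩
    have hsq : ∀ {r : G}, IsConj (w * w) r → r * r = 1 := fun {r} hr => by
      obtain ⟨c, rfl⟩ := isConj_iff.1 hr
      rw [conj_mul, h.tt, mul_one, mul_inv_cancel]
    have hq' : q = p * w := by
      rw [← hpq]
      show q = p * (p * q)
      rw [← mul_assoc, hsq hp, one_mul]
    have hpw : p * w * p = w⁻¹ := by
      have h2 := hsq hq
      rw [hq'] at h2
      exact mul_eq_one_iff_eq_inv.1 (by rw [← h2]; group)
    have hk : p * τ ∈ Subgroup.zpowers w := h.cent _ (by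
      calc p * τ * w = p * w⁻¹ * τ := by rw [mul_assoc, h.τw, ← mul_assoc]
        _ = p * (p * w * p) * τ := by rw [hpw]
        _ = p * p * w * (p * τ) := by group
        _ = w * (p * τ) := by rw [hsq hp, one_mul])
    refine ⟨⟨_, hk⟩, Subtype.ext ?_⟩
    show (p * τ * τ, p * τ * τ * w) = (p, q)
    rw [mul_assoc p τ τ, h.ττ, mul_one, hq']

/-- The numerical conditions. -/
theorem exists_charFacts [IsSimpleGroup G] (hG : ¬ IsCyclic G) (h : Hyp w τ) :
    ∃ (x : ℕ) (δ u v : ℤ),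
      CharFacts (Nat.card G) (Nat.card (sideA w τ)) (Nat.card (sideB w τ)) x δ u v := by
  classical
  haveI := Fintype.ofFinite G
  haveI : Fact (Nat.Prime 2) := ⟨Nat.prime_two⟩
  obtain ⟨M, hM⟩ := Blocks.exists_isPModular 2 Nat.prime_two
  haveI := isMaximal_of_isPModular hM
  obtain ⟨S, d⟩ := h.sylow
  have hζ := Complex.isPrimitiveRoot_exp (2 ^ 2) (by norm_num)
  set ψ : AddChar (ZMod (2 ^ 2)) ℂ :=
    AddChar.zmodChar (2 ^ 2) ((IsPrimitiveRoot.iff_def _ _).mp hζ).left
  have hψ : ψ.IsPrimitive := AddChar.zmodChar_primitive_of_primitive_root (2 ^ 2) hζ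
  have hψh := apply_half hψ d
  obtain ⟨C, Y, Z, U, a, b, c, ha, hb, hc, hC1, hY1, hZ1, hCY, hCZ, hYZ, hU, -, hmem, htab, hreg⟩ :=
    exists_table d le_rfl hM hψ
  obtain ⟨hU1, hUC, hUY, hUZ⟩ := hU 1 le_rfl (by norm_num)
  have h10 : (1 : ZMod (2 ^ 2)) ≠ 0 := by decide
  have hh0 := half_ne_zero d
  have hw1 : rot w (1 : ZMod (2 ^ 2)) = w := by
    rw [show (1 : ZMod (2 ^ 2)) = ((1 : ℤ) : ZMod (2 ^ 2)) from by simp, rot_intCast d, zpow_one]
  have ht1 : rot w (half 2) = w * w := by rw [rot_half d, zpow_half]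
  have hψhh : ψ (half 2 * half 2) = 1 := by
    rw [show half 2 * half 2 = (0 : ZMod (2 ^ 2)) from by decide, AddChar.map_zero_eq_one]
  have hψm : ψ (-1) = -ψ 1 := by
    rw [show (-1 : ZMod (2 ^ 2)) = 1 + half 2 from by decide, AddChar.map_add_eq_mul, hψh]
    ring
  obtain ⟨eC, eY, eZ, eU⟩ := htab 1 h10
  obtain ⟨fC, fY, fZ, fU⟩ := htab _ hh0
  simp only [rotVal, hw1, mul_one, hψh, mul_neg_one] at eC eY eZ eU
  simp only [rotVal, ht1, hψhh, mul_one] at fC fY fZ fU
  have eU' : (U 1 : G → ℂ) w = 0 := by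
    rw [eU 1 le_rfl (by norm_num), Nat.cast_one, hψm]; ring
  -- the block sum at `w` exhausts the centraliser
  have hB : B0 M = {Chars.oneChar G, C, Y, Z, U 1} := by
    ext φ
    simp only [mem_B0, hmem, Finset.mem_insert, Finset.mem_singleton]
    refine or_congr_right (or_congr_right (or_congr_right (or_congr_right ⟨?_, ?_⟩)))
    · rintro ⟨k, hk1, hk2, rfl⟩
      rw [show k = 1 by norm_num at hk2; omega]
    · exact fun e => ⟨1, le_rfl, by norm_num, e⟩
  have haa : (a : ℂ) * a = 1 := by rcases ha with rfl | rfl <;> norm_num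
  have hbb : (b : ℂ) * b = 1 := by rcases hb with rfl | rfl <;> norm_num
  have hcc : (c : ℂ) * c = 1 := by rcases hc with rfl | rfl <;> norm_num
  set F : Finset (IrrCharacter G) := {Chars.oneChar G, C, Y, Z} with hF
  have hFsum : ∀ f : IrrCharacter G → ℂ, ∑ φ ∈ F, f φ = f (Chars.oneChar G) + (f C + (f Y + f Z)) :=
    fun f => by
      rw [hF, Finset.sum_insert (by simp [hC1.symm, hY1.symm, hZ1.symm]),
        Finset.sum_insert (by simp [hCY, hCZ]), Finset.sum_pair hYZ]
  have hwcard : Nat.card (Subgroup.centralizer ({w} : Set G)) = 4 := by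
    rw [← h.ow, ← Nat.card_zpowers w]
    congr 2
    refine le_antisymm (fun g hg => h.cent g (Subgroup.mem_centralizer_singleton_iff.1 hg))
      (Subgroup.zpowers_le.2 (Subgroup.mem_centralizer_singleton_iff.2 rfl))
  have hvanish : ∀ φ : IrrCharacter G, φ ∉ F → (φ : G → ℂ) w = 0 := by
    have h1 := Chars.sum_irr_norm_sq w
    rw [hwcard] at h1
    have hn : ∀ e : ℤ, (e = 1 ∨ e = -1) → ‖(e : ℂ)‖ ^ 2 = 1 ∧ ‖-(e : ℂ)‖ ^ 2 = 1 := fun e he => by
      rcases he with rfl | rfl <;> simp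
    have h2 : ∑ φ ∈ F, ‖(φ : G → ℂ) w‖ ^ 2 = 4 := by
      rw [hF, Finset.sum_insert (by simp [hC1.symm, hY1.symm, hZ1.symm]),
        Finset.sum_insert (by simp [hCY, hCZ]), Finset.sum_pair hYZ, eC, eY, eZ, Chars.oneChar_apply,
        (hn a ha).2, (hn b hb).2, (hn c hc).2]
      norm_num
    rw [← Finset.sum_add_sum_compl F, h2] at h1
    have h3 : ∑ φ ∈ Fᶜ, ‖(φ : G → ℂ) w‖ ^ 2 = 0 := by push_cast at h1; linarith
    intro φ hφ
    have := (Finset.sum_eq_zero_iff_of_nonneg (fun ψ _ => by positivity)).1 h3 φ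
      (Finset.mem_compl.2 hφ)
    simpa using this
  set x := charDegree (C : G → ℂ) with hx
  set y := charDegree (Y : G → ℂ) with hy
  set z := charDegree (Z : G → ℂ) with hz
  have hx0 : 0 < x := Chars.charDegree_pos C
  have hy0 : 0 < y := Chars.charDegree_pos Y
  have hz0 : 0 < z := Chars.charDegree_pos Z
  have hC : (C : G → ℂ) 1 = (x : ℂ) := (Chars.coe_charDegree C).symm
  have hY : (Y : G → ℂ) 1 = (y : ℂ) := (Chars.coe_charDegree Y).symm
  have hZ : (Z : G → ℂ) 1 = (z : ℂ) := (Chars.coe_charDegree Z).symm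
  have hdeg : a * x + b * y + c * z = 1 := by
    have h1 := (hreg 1 (by rw [orderOf_one]; norm_num)).1
    rw [hC, hY, hZ] at h1
    exact_mod_cast h1
  have hmod : ∀ (V : IrrCharacter G) (e : ℤ) (e' : ℤ), (V : G → ℂ) w = e → (V : G → ℂ) (w * w) = e' →
      (4 : ℤ) ∣ (charDegree (V : G → ℂ) : ℤ) + 2 * e + e' := fun V e e' he he' => by
    obtain ⟨q, hq⟩ := sum_four h V
    rw [he, he', ← Chars.coe_charDegree V] at hq
    exact ⟨q, by exact_mod_cast hq⟩
  have mC := hmod C (-a) (-a) (by rw [eC]; push_cast; rfl) (by rw [fC]; push_cast; rfl)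
  have mY := hmod Y (-b) b (by rw [eY]; push_cast; rfl) fY
  have mZ := hmod Z (-c) c (by rw [eZ]; push_cast; rfl) fZ
  rw [← hx] at mC
  rw [← hy] at mY
  rw [← hz] at mZ
  have hx1 := charDegree_ne_one hG hC1
  have hy1 := charDegree_ne_one hG hY1
  have hz1 := charDegree_ne_one hG hZ1
  rw [← hx] at hx1
  rw [← hy] at hy1
  rw [← hz] at hz1
  have hof := order_formula d le_rfl hM h.one
    ((hmem C).2 (Or.inr (Or.inl rfl))) hC1 (δ := -a) (fun μ hμ => by
      rw [(htab μ hμ).1]; push_cast; rfl)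
  rw [← hx] at hof
  refine ⟨x, -a, -b * y, -c * z, ?_, by omega, ?_, ?_, ?_, ?_, ?_, ?_, ?_, ?_, ?_⟩
  · omega
  · rcases ha with rfl | rfl <;> omega
  · rcases hb with rfl | rfl <;> omega
  · rcases hc with rfl | rfl <;> omega
  · rcases hb with rfl | rfl <;> omega
  · rcases hc with rfl | rfl <;> omega
  · linear_combination -hdeg
  · -- the order formula
    obtain ⟨hne, hf⟩ := hof
    rw [zpow_half, h.card_cent, h.card_core, h.card_cent_four, h.swap.card_cent_four] at hf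
    have hA : ((Nat.card (sideA w τ) : ℕ) : ℚ) ≠ 0 := Nat.cast_ne_zero.2 Nat.card_pos.ne'
    have hB' : ((Nat.card (sideB w τ) : ℕ) : ℚ) ≠ 0 := Nat.cast_ne_zero.2 Nat.card_pos.ne'
    have key : ((Nat.card G : ℤ) : ℚ) * (((x : ℤ) : ℚ) - ((-a : ℤ) : ℚ)) ^ 2 =
        64 * (Nat.card (sideA w τ) : ℚ) * (Nat.card (sideB w τ) : ℚ) *
          ((Nat.card (sideA w τ) : ℚ) + (Nat.card (sideB w τ) : ℚ)) ^ 2 * x * ((x : ℚ) + (-a : ℤ)) := by
      change _ = _ at hf
      rw [show sideA w (w * τ) = sideB w τ from rfl] at hf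
      push_cast at hf ⊢
      rw [hf]
      field_simp
      ring
    exact_mod_cast key
  · -- pairs of involutions with product `w`
    have hk := Cfsg.Agent.S0840.key_formula (w * w) (w * w) w
    rw [card_pairs h, h.card_cent, h.card_core] at hk
    rw [← Finset.sum_subset (Finset.subset_univ F) (fun φ _ hφ => by rw [hvanish φ hφ]; simp), hFsum,
      fC, fY, fZ, eC, eY, eZ, hC, hY, hZ, Chars.oneChar_apply, Chars.oneChar_apply,
      Chars.oneChar_apply] at hk
    simp only [map_neg, map_intCast, map_one, mul_one, div_one] at hk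
    have hx0' : (x : ℂ) ≠ 0 := Nat.cast_ne_zero.2 hx0.ne'
    have hy0' : (y : ℂ) ≠ 0 := Nat.cast_ne_zero.2 hy0.ne'
    have hz0' : (z : ℂ) ≠ 0 := Nat.cast_ne_zero.2 hz0.ne'
    have hb0 : (b : ℂ) ≠ 0 := fun e => by rw [e, zero_mul] at hbb; exact zero_ne_one hbb
    have hc0 : (c : ℂ) ≠ 0 := fun e => by rw [e, zero_mul] at hcc; exact zero_ne_one hcc
    have e1 : (b : ℂ) * b * -(b : ℂ) / y = 1 / (-(b : ℂ) * y) := by
      rw [hbb, one_mul]
      field_simp
      linear_combination -hbb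
    have e2 : (c : ℂ) * c * -(c : ℂ) / z = 1 / (-(c : ℂ) * z) := by
      rw [hcc, one_mul]
      field_simp
      linear_combination -hcc
    rw [e1, e2, neg_mul_neg, haa, one_mul] at hk
    apply Rat.cast_injective (α := ℂ)
    push_cast at hk ⊢
    linear_combination -hk
  · intro hA1
    have hA : sideA w τ ≠ ⊥ := fun e => by rw [e, Subgroup.card_bot] at hA1; omega
    obtain ⟨bC, bC'⟩ := deg_bound hG h hM hA ((hmem C).2 (Or.inr (Or.inl rfl))) hC1 (ε := -a)
      (by rw [fC]; push_cast; rfl)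
    obtain ⟨bY, bY'⟩ := deg_bound hG h hM hA ((hmem Y).2 (Or.inr (Or.inr (Or.inl rfl)))) hY1 fY
    obtain ⟨bZ, bZ'⟩ :=
      deg_bound hG h hM hA ((hmem Z).2 (Or.inr (Or.inr (Or.inr (Or.inl rfl))))) hZ1 fZ
    rw [← hx] at bC bC'
    rw [← hy] at bY bY'
    rw [← hz] at bZ bZ'
    refine ⟨bC, bC', ?_, ?_⟩
    · rcases hb with rfl | rfl
      · have := bY rfl; omega
      · have := bY' rfl; omega
    · rcases hc with rfl | rfl
      · have := bZ rfl; omega
      · have := bZ' rfl; omega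

end CfsgLib.CentFour
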