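import Cfsg.Agent.CentFour.Basic
import Cfsg.Agent.DihedralBlock.OneClass

/-!
# The centraliser of the involution and the fusion above a part of its odd core

For `h : Hyp w τ` the odd core of the centraliser of `t = w * w` is abelian, inverted by `w`, and the
product of `sideA` (fixed by `τ`) and `sideB` (fixed by `w * τ`).
-/

set_option autoImplicit false
set_option linter.style.haveILetI false

namespace CfsgLib.CentFour

open CfsgLib.FusionTwo CfsgLib.Blocks

universe u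

variable {G : Type u} [Group G] {w τ : G}

theorem zpow_half (w : G) : w ^ ((2 : ℤ) ^ (2 - 1)) = w * w := by norm_num [zpow_two, pow_two]

/-- The odd core of the centraliser of `w * w`. -/
def core (w : G) : Subgroup G := ZStar.coreC 2 (Subgroup.zpowers (w * w))

/-- The part of the core fixed by `τ`. -/
def sideA (w τ : G) : Subgroup G := core w ⊓ Subgroup.centralizer ({τ} : Set G)

/-- The part of the core fixed by `w * τ`. -/
def sideB (w τ : G) : Subgroup G := core w ⊓ Subgroup.centralizer ({w * τ} : Set G)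

/-- A subgroup that is a product of two subgroups with trivial intersection. -/
theorem card_eq_mul {H A B : Subgroup G} (hA : A ≤ H) (hB : B ≤ H)
    (hAB : ∀ x, x ∈ A → x ∈ B → x = 1) (hdec : ∀ x ∈ H, ∃ a ∈ A, ∃ b ∈ B, x = a * b) :
    Nat.card H = Nat.card A * Nat.card B := by
  rw [← Nat.card_prod]
  refine (Nat.card_eq_of_bijective
    (fun p : A × B => (⟨(p.1 : G) * p.2, H.mul_mem (hA p.1.2) (hB p.2.2)⟩ : H)) ⟨?_, ?_⟩).symm
  · rintro ⟨⟨a, ha⟩, ⟨b, hb⟩⟩ ⟨⟨a', ha'⟩, ⟨b', hb'⟩⟩ e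
    have e' : a * b = a' * b' := congrArg Subtype.val e
    have h1 : a'⁻¹ * a = b' * b⁻¹ := by
      rw [eq_mul_inv_iff_mul_eq, mul_assoc, e', inv_mul_cancel_left]
    have h2 := hAB _ (A.mul_mem (A.inv_mem ha') ha) (by rw [h1]; exact B.mul_mem hb' (B.inv_mem hb))
    have haa : a' = a := inv_mul_eq_one.1 h2
    subst haa
    have hbb : b = b' := mul_left_cancel e'
    subst hbb
    rfl
  · rintro ⟨x, hx⟩
    obtain ⟨a, ha, b, hb, rfl⟩ := hdec x hx
    exact ⟨(⟨a, ha⟩, ⟨b, hb⟩), rfl⟩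

namespace Hyp

theorem ow (h : Hyp w τ) : orderOf w = 4 := by
  obtain ⟨S, d⟩ := h.sylow
  rw [d.ox]
  norm_num

theorem ot (h : Hyp w τ) : orderOf (w * w) = 2 := by
  obtain ⟨S, d⟩ := h.sylow
  have := d.orderOf_z
  rwa [zpow_half] at this

theorem tt (h : Hyp w τ) : w * w * (w * w) = 1 := by
  rw [← pow_two (w * w), ← h.ot, pow_orderOf_eq_one]

theorem oτ (h : Hyp w τ) : orderOf τ = 2 := by
  obtain ⟨S, d⟩ := h.sylow
  exact d.oy

theorem ττ (h : Hyp w τ) : τ * τ = 1 := by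
  obtain ⟨S, d⟩ := h.sylow
  exact d.yy

theorem τ_inv (h : Hyp w τ) : τ⁻¹ = τ := inv_eq_of_mul_eq_one_left h.ττ

theorem τw (h : Hyp w τ) : τ * w = w⁻¹ * τ := by
  obtain ⟨S, d⟩ := h.sylow
  rw [← d.rel]; group

theorem commute_tτ (h : Hyp w τ) : Commute (w * w) τ := by
  obtain ⟨S, d⟩ := h.sylow
  have := d.z_comm d.y_mem
  rwa [zpow_half] at this

theorem conj_t (h : Hyp w τ) {u : G} (hu : orderOf u = 2) : IsConj (w * w) u := by
  have := h.one u hu
  rwa [zpow_half] at this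

theorem swap (h : Hyp w τ) : Hyp w (w * τ) := by
  obtain ⟨S, d⟩ := h.sylow
  refine ⟨⟨S, ?_⟩, h.cent, h.one⟩
  have := d.change_y 1
  rwa [zpow_one] at this

theorem commute_t_w (w : G) : Commute (w * w) w := (Commute.refl w).mul_left (Commute.refl w)

theorem commute_of_mem_core [Finite G] {r : G} (hr : r ∈ core w) : Commute (w * w) r :=
  ZStar.mem_centralizer_zpowers_iff.1 (ZStar.coreC_le 2 _ hr)

theorem odd_of_mem_core [Finite G] {r : G} (hr : r ∈ core w) : ¬ 2 ∣ orderOf r := fun hd => by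
  haveI : Fact (Nat.Prime 2) := ⟨Nat.prime_two⟩
  refine ZStar.not_dvd_card_coreC 2 (Subgroup.zpowers (w * w)) (hd.trans ?_)
  rw [← Subgroup.orderOf_mk r (show r ∈ ZStar.coreC 2 (Subgroup.zpowers (w * w)) from hr)]
  exact orderOf_dvd_natCard _

variable [Finite G]

theorem mem_core (h : Hyp w τ) {r : G} (hc : Commute (w * w) r) (ho : ¬ 2 ∣ orderOf r) :
    r ∈ core w := by
  obtain ⟨S, d⟩ := h.sylow
  have key : ∀ (C : Subgroup G) (_ : C = Subgroup.centralizer ({w * w} : Set G)) (hm : r ∈ C),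
      (⟨r, hm⟩ : C) ∈ Cfsg.pPrimeCore 2 C := by
    rintro C rfl hm
    refine DihedralBlock.mem_pPrimeCore ?_ (by rwa [← Subgroup.orderOf_coe])
    rw [← zpow_half]; exact DihedralBlock.npc_z d
  exact ⟨⟨r, ZStar.mem_centralizer_zpowers_iff.2 hc⟩,
    key _ (HeightZero.centralizer_zpowers_eq (w * w)) _, rfl⟩

theorem card_cent (h : Hyp w τ) :
    Nat.card (Subgroup.centralizer ({w * w} : Set G)) = 8 * Nat.card (core w) := by
  obtain ⟨S, d⟩ := h.sylow
  have key : ∀ (C : Subgroup G) (_ : C = Subgroup.centralizer ({w * w} : Set G)),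
      Nat.card C = 8 * Nat.card ((Cfsg.pPrimeCore 2 C).map C.subtype) := by
    rintro C rfl
    rw [Subgroup.card_map_of_injective (Subgroup.subtype_injective _), ← Subgroup.card_mul_index
      (Cfsg.pPrimeCore 2 (Subgroup.centralizer ({w * w} : Set G)))]
    rw [DihedralBlock.index_pPrimeCore (by rw [← zpow_half]; exact DihedralBlock.npc_z d),
      show (Nat.card (Subgroup.centralizer ({w * w} : Set G))).factorization 2 = 3 by
        rw [← zpow_half]; exact DihedralBlock.factorization_z d]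
    ring
  rw [← HeightZero.centralizer_zpowers_eq (w * w),
    key _ (HeightZero.centralizer_zpowers_eq (w * w))]
  rfl

theorem conj_mem_core (h : Hyp w τ) {g r : G} (hg : Commute (w * w) g) (hr : r ∈ core w) :
    g * r * g⁻¹ ∈ core w := by
  refine h.mem_core ((hg.mul_right (commute_of_mem_core hr)).mul_right hg.inv_right) ?_
  rw [orderOf_conj]
  exact odd_of_mem_core hr

omit [Finite G] in
theorem eq_one_of_sq {r : G} (ho : ¬ 2 ∣ orderOf r) (h2 : r * r = 1) : r = 1 := by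
  rw [← orderOf_eq_one_iff]
  rcases (Nat.dvd_prime Nat.prime_two).1 (orderOf_dvd_of_pow_eq_one (x := r) (n := 2) (by rw [pow_two, h2])) with e | e
  · exact e
  · exact absurd (dvd_of_eq e.symm) ho

/-- `w` inverts the core. -/
theorem inverts (h : Hyp w τ) {r : G} (hr : r ∈ core w) : w * r * w⁻¹ = r⁻¹ := by
  set f : core w → core w := fun o =>
    ⟨(o : G)⁻¹ * (w * o * w⁻¹), (core w).mul_mem ((core w).inv_mem o.2)
      (h.conj_mem_core (commute_t_w w) o.2)⟩ with hf
  have hinj : Function.Injective f := by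
    rintro ⟨a, ha⟩ ⟨b, hb⟩ e
    have e' : a⁻¹ * (w * a * w⁻¹) = b⁻¹ * (w * b * w⁻¹) := congrArg Subtype.val e
    apply Subtype.ext
    show a = b
    have h1 : b * a⁻¹ * w = w * (b * a⁻¹) := by
      calc b * a⁻¹ * w = b * (a⁻¹ * (w * a * w⁻¹)) * w * a⁻¹ := by group
        _ = b * (b⁻¹ * (w * b * w⁻¹)) * w * a⁻¹ := by rw [e']
        _ = w * (b * a⁻¹) := by group
    have hmem : b * a⁻¹ ∈ core w := (core w).mul_mem hb ((core w).inv_mem ha)
    have h4 : orderOf (b * a⁻¹) ∣ 4 := by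
      rw [← h.ow, ← Nat.card_zpowers w, ← Subgroup.orderOf_mk (b * a⁻¹) (h.cent _ h1)]
      exact orderOf_dvd_natCard _
    have h5 : orderOf (b * a⁻¹) = 1 := by
      obtain ⟨k, -, hk⟩ := (Nat.dvd_prime_pow Nat.prime_two).1
        (h4.trans (dvd_of_eq (by norm_num : (4 : ℕ) = 2 ^ 2)))
      cases k with
      | zero => simpa using hk
      | succ k => exact absurd (by rw [hk]; exact dvd_pow_self 2 k.succ_ne_zero) (odd_of_mem_core hmem)
    rw [orderOf_eq_one_iff, mul_inv_eq_one] at h5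
    exact h5.symm
  obtain ⟨⟨o, ho⟩, e⟩ := (Finite.injective_iff_surjective.1 hinj) ⟨r, hr⟩
  have e' : o⁻¹ * (w * o * w⁻¹) = r := congrArg Subtype.val e
  rw [← e']
  calc w * (o⁻¹ * (w * o * w⁻¹)) * w⁻¹ = w * o⁻¹ * w⁻¹ * (w * w * o * (w * w)⁻¹) := by group
    _ = w * o⁻¹ * w⁻¹ * o := by rw [(commute_of_mem_core ho).eq, mul_inv_cancel_right]
    _ = (o⁻¹ * (w * o * w⁻¹))⁻¹ := by group

theorem core_comm (h : Hyp w τ) {a b : G} (ha : a ∈ core w) (hb : b ∈ core w) : Commute a b := by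
  have e : (a * b)⁻¹ = a⁻¹ * b⁻¹ := by
    rw [← h.inverts ((core w).mul_mem ha hb), ← h.inverts ha, ← h.inverts hb]; group
  rw [mul_inv_rev] at e
  have := congrArg Inv.inv e
  simp only [mul_inv_rev, inv_inv] at this
  exact this

/-- On the core, `w * τ` acts as the inverse of `τ`. -/
theorem conj_wτ (h : Hyp w τ) {r : G} (hr : r ∈ core w) :
    w * τ * r * (w * τ)⁻¹ = (τ * r * τ⁻¹)⁻¹ := by
  rw [← h.inverts (h.conj_mem_core h.commute_tτ hr)]; group

theorem mem_sideB_iff (h : Hyp w τ) {r : G} :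
    r ∈ sideB w τ ↔ r ∈ core w ∧ τ * r * τ⁻¹ = r⁻¹ := by
  rw [sideB, Subgroup.mem_inf, Subgroup.mem_centralizer_singleton_iff]
  refine and_congr_right fun hr => ⟨fun e => ?_, fun e => ?_⟩
  · have h1 := h.conj_wτ hr
    rw [← e, mul_inv_cancel_right] at h1
    rw [← inv_inv (τ * r * τ⁻¹), ← h1]
  · have h1 := h.conj_wτ hr
    rw [e, inv_inv, mul_inv_eq_iff_eq_mul] at h1
    exact h1.symm

omit [Finite G] in
theorem mem_sideA_iff {r : G} : r ∈ sideA w τ ↔ r ∈ core w ∧ Commute τ r := by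
  rw [sideA, Subgroup.mem_inf, Subgroup.mem_centralizer_singleton_iff]
  exact and_congr_right fun _ => ⟨fun e => e.symm, fun e => e.eq.symm⟩

theorem card_core (h : Hyp w τ) :
    Nat.card (core w) = Nat.card (sideA w τ) * Nat.card (sideB w τ) := by
  refine card_eq_mul inf_le_left inf_le_left (fun x hA hB => ?_) (fun x hx => ?_)
  · obtain ⟨hx, hc⟩ := mem_sideA_iff.1 hA
    have e := (h.mem_sideB_iff.1 hB).2
    rw [hc.eq, mul_inv_cancel_right] at e
    refine eq_one_of_sq (odd_of_mem_core hx) ?_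
    nth_rw 1 [e]
    exact inv_mul_cancel x
  · obtain ⟨j, hj⟩ := exists_pow_eq_self_of_coprime (x := x) (n := 2)
      (Nat.prime_two.coprime_iff_not_dvd.2 (odd_of_mem_core hx))
    set r := x ^ j with hr
    have hrr : r * r = x := by
      conv_rhs => rw [← hj]
      rw [hr, ← pow_add, ← pow_mul, two_mul]
    have hrm : r ∈ core w := (core w).pow_mem hx j
    set r' := τ * r * τ⁻¹ with hr'
    have hr'm : r' ∈ core w := h.conj_mem_core h.commute_tτ hrm
    have e : τ * r' * τ⁻¹ = r := by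
      rw [hr', h.τ_inv]
      calc τ * (τ * r * τ) * τ = τ * τ * r * (τ * τ) := by group
        _ = r := by rw [h.ττ, one_mul, mul_one]
    refine ⟨r * r', mem_sideA_iff.2 ⟨(core w).mul_mem hrm hr'm, ?_⟩, r * r'⁻¹,
      h.mem_sideB_iff.2 ⟨(core w).mul_mem hrm ((core w).inv_mem hr'm), ?_⟩, ?_⟩
    · show τ * (r * r') = r * r' * τ
      rw [← mul_inv_eq_iff_eq_mul]
      calc τ * (r * r') * τ⁻¹ = r' * (τ * r' * τ⁻¹) := by rw [hr']; group
        _ = r * r' := by rw [e]; exact (h.core_comm hr'm hrm).eq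
    · calc τ * (r * r'⁻¹) * τ⁻¹ = r' * (τ * r' * τ⁻¹)⁻¹ := by rw [hr']; group
        _ = (r * r'⁻¹)⁻¹ := by rw [e, mul_inv_rev, inv_inv]
    · rw [mul_assoc, ← mul_assoc r' r, (h.core_comm hr'm hrm).eq, mul_assoc r r', mul_inv_cancel,
        mul_one, hrr]

/-- The centraliser of the involution is the product of its core and the Sylow 2-subgroup. -/
theorem exists_decomp (h : Hyp w τ) {g : G} (hg : Commute (w * w) g) :
    ∃ o ∈ core w, ∃ i : ℤ, g = o * w ^ i ∨ g = o * (w ^ i * τ) := by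
  obtain ⟨S, d⟩ := h.sylow
  haveI : Fact (Nat.Prime 2) := ⟨Nat.prime_two⟩
  have hdisj : ∀ x, x ∈ core w → x ∈ (S : Subgroup G) → x = 1 := fun x hx hxS => by
    obtain ⟨k, hk⟩ := S.2 ⟨x, hxS⟩
    have hk' : x ^ 2 ^ k = 1 := by simpa using congrArg Subtype.val hk
    obtain ⟨j, -, hj⟩ := (Nat.dvd_prime_pow Nat.prime_two).1 (orderOf_dvd_of_pow_eq_one hk')
    cases j with
    | zero => simpa using hj
    | succ j => exact absurd (by rw [hj]; exact dvd_pow_self 2 j.succ_ne_zero) (odd_of_mem_core hx)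
  have hS8 : Nat.card (S : Subgroup G) = 8 := by rw [d.card]; norm_num
  let f : core w × (S : Subgroup G) → Subgroup.centralizer ({w * w} : Set G) := fun p =>
    ⟨(p.1 : G) * p.2, Subgroup.mem_centralizer_singleton_iff.2
      ((commute_of_mem_core p.1.2).mul_right
        (show Commute (w * w) (p.2 : G) by
          have := d.z_comm p.2.2; rwa [zpow_half] at this)).eq.symm⟩
  have hinj : Function.Injective f := by
    rintro ⟨⟨a, ha⟩, ⟨s, hs⟩⟩ ⟨⟨a', ha'⟩, ⟨s', hs'⟩⟩ e
    have e' : a * s = a' * s' := congrArg Subtype.val e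
    have h1 : a'⁻¹ * a = s' * s⁻¹ := by
      rw [eq_mul_inv_iff_mul_eq, mul_assoc, e', inv_mul_cancel_left]
    have h2 := hdisj _ ((core w).mul_mem ((core w).inv_mem ha') ha)
      (by rw [h1]; exact mul_mem hs' (inv_mem hs))
    have haa : a' = a := inv_mul_eq_one.1 h2
    subst haa
    have hss : s = s' := mul_left_cancel e'
    subst hss
    rfl
  have hbij := (Nat.bijective_iff_injective_and_card f).2
    ⟨hinj, by rw [Nat.card_prod, hS8, h.card_cent, mul_comm]⟩
  obtain ⟨⟨⟨o, ho⟩, ⟨s, hs⟩⟩, e⟩ := hbij.2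
    ⟨g, Subgroup.mem_centralizer_singleton_iff.2 hg.eq.symm⟩
  have e' : o * s = g := congrArg Subtype.val e
  obtain ⟨i, rfl | rfl⟩ := d.mem_cases hs
  · exact ⟨o, ho, i, Or.inl e'.symm⟩
  · exact ⟨o, ho, i, Or.inr e'.symm⟩

theorem zpow_even_or_odd (h : Hyp w τ) (i : ℤ) :
    (w ^ i = 1 ∨ w ^ i = w * w) ∨ (w ^ i = w ∨ w ^ i = w * w * w) := by
  have h4 : w ^ (4 : ℤ) = 1 := orderOf_dvd_iff_zpow_eq_one.1 (by rw [h.ow]; norm_num)
  obtain ⟨q, r, hr0, hr4, rfl⟩ : ∃ q r : ℤ, 0 ≤ r ∧ r < 4 ∧ i = 4 * q + r :=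
    ⟨i / 4, i % 4, by omega, by omega, by omega⟩
  rw [zpow_add, zpow_mul, h4, one_zpow, one_mul]
  have h3 : w ^ (3 : ℤ) = w * w * w := by
    rw [show (3 : ℤ) = ((3 : ℕ) : ℤ) from rfl, zpow_natCast, pow_succ, pow_two]
  interval_cases r
  · exact Or.inl (Or.inl (zpow_zero w))
  · exact Or.inr (Or.inl (zpow_one w))
  · exact Or.inl (Or.inr (zpow_two w))
  · exact Or.inr (Or.inr h3)

/-- Membership in the four group `{1, t, τ, tτ}` of an element of `S` fixing the part `A` or `τ`. -/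
theorem exists_four (h : Hyp w τ) : ∃ U : Subgroup G, IsKleinFour U ∧
    (∃ S : Sylow 2 G, IsDihGen (S : Subgroup G) 2 w τ ∧ U ≤ (S : Subgroup G)) ∧
    ∀ g, g ∈ U ↔ g = 1 ∨ g = w * w ∨ g = τ ∨ g = w * w * τ := by
  obtain ⟨S, d⟩ := h.sylow
  obtain ⟨U, hU, hUS, hiff⟩ := d.exists_four 0
  simp only [zpow_half, zpow_zero, one_mul] at hiff
  exact ⟨U, hU, ⟨S, d, hUS⟩, hiff⟩

theorem w_moves (h : Hyp w τ) : τ * w ≠ w * τ := fun e => by
  rw [h.τw] at e
  have h2 : w * w = 1 := by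
    have := mul_right_cancel e
    nth_rw 1 [← this]
    exact inv_mul_cancel w
  have := h.ot
  rw [h2, orderOf_one] at this
  omega

theorem card_cent_four (h : Hyp w τ) :
    Nat.card (Subgroup.centralizer ({w * w, τ} : Set G)) = 4 * Nat.card (sideA w τ) := by
  obtain ⟨U, hU, -, hiff⟩ := h.exists_four
  rw [card_eq_mul (A := sideA w τ) (B := U), hU.card_four, mul_comm]
  · intro x hx
    rw [Subgroup.mem_centralizer_iff]
    intro y hy
    rcases hy with hy | hy <;> rw [hy]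
    · exact (commute_of_mem_core (mem_sideA_iff.1 hx).1).eq
    · exact (mem_sideA_iff.1 hx).2.eq
  · intro x hx
    rw [Subgroup.mem_centralizer_iff]
    intro y hy
    rcases (hiff x).1 hx with e | e | e | e <;> rcases hy with hy | hy <;> rw [e, hy]
    exacts [by simp, by simp, h.commute_tτ.eq.symm, h.commute_tτ.eq,
      ((Commute.refl (w * w)).mul_right h.commute_tτ).eq,
      (h.commute_tτ.symm.mul_right (Commute.refl τ)).eq]
  · intro x hxA hxU
    refine eq_one_of_sq (odd_of_mem_core (mem_sideA_iff.1 hxA).1) ?_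
    exact congrArg Subtype.val (IsKleinFour.mul_self (⟨x, hxU⟩ : U))
  · intro g hg
    rw [Subgroup.mem_centralizer_iff] at hg
    have hgt : Commute (w * w) g := hg _ (Set.mem_insert _ _)
    have hgτ : τ * g = g * τ := hg τ (Set.mem_insert_of_mem _ rfl)
    obtain ⟨o, ho, i, e⟩ := h.exists_decomp hgt
    set s := o⁻¹ * g with hs
    have hsmem : s ∈ U ∨ s = w ∨ s = w * w * w ∨ s = w * τ ∨ s = w * w * w * τ := by
      rcases e with rfl | rfl <;> rw [hs, inv_mul_cancel_left] <;>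
        rcases h.zpow_even_or_odd i with (h1 | h1) | (h1 | h1) <;> rw [h1]
      all_goals first
        | (exact Or.inl ((hiff _).2 (by first
            | exact Or.inl rfl
            | exact Or.inr (Or.inl rfl)
            | exact Or.inr (Or.inr (Or.inl (one_mul _)))
            | exact Or.inr (Or.inr (Or.inr rfl)))))
        | exact Or.inr (Or.inl rfl)
        | exact Or.inr (Or.inr (Or.inl rfl))
        | exact Or.inr (Or.inr (Or.inr (Or.inl rfl)))
        | exact Or.inr (Or.inr (Or.inr (Or.inr rfl)))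
    have hg' : g = o * s := by rw [hs, mul_inv_cancel_left]
    -- project the relation on both factors
    have h1 : (τ * o * τ⁻¹)⁻¹ * o = τ * s * τ⁻¹ * s⁻¹ := by
      rw [hg'] at hgτ
      calc (τ * o * τ⁻¹)⁻¹ * o = τ * o⁻¹ * τ⁻¹ * (o * s * τ) * τ⁻¹ * s⁻¹ := by group
        _ = τ * s * τ⁻¹ * s⁻¹ := by rw [← hgτ]; group
    have h2 : τ * s * τ⁻¹ * s⁻¹ ∈ core w := h1 ▸ (core w).mul_mem
      ((core w).inv_mem (h.conj_mem_core h.commute_tτ ho)) ho
    have hsU : s ∈ U := by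
      rcases hsmem with hU' | hodd
      · exact hU'
      exfalso
      have h3 : τ * s * τ⁻¹ * s⁻¹ = w * w := by
        have hwi : w⁻¹ = w * w * w := inv_eq_of_mul_eq_one_left (by rw [mul_assoc (w * w)]; exact h.tt)
        have hτs : τ * w * τ⁻¹ = w⁻¹ := by rw [h.τw, mul_inv_cancel_right]
        have hwwi : (w * w)⁻¹ = w * w := inv_eq_of_mul_eq_one_left h.tt
        rcases hodd with h0 | h0 | h0 | h0 <;> rw [h0]
        · rw [hτs, ← mul_inv_rev, hwwi]
        · rw [show τ * (w * w * w) * τ⁻¹ = τ * w * τ⁻¹ * (τ * w * τ⁻¹) * (τ * w * τ⁻¹) by group, hτs,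
            ← hwi, inv_inv]
          calc w⁻¹ * w⁻¹ * w⁻¹ * w = (w * w)⁻¹ := by group
            _ = w * w := hwwi
        · rw [show τ * (w * τ) * τ⁻¹ * (w * τ)⁻¹ = τ * w * τ⁻¹ * w⁻¹ by group, hτs, ← mul_inv_rev,
            hwwi]
        · rw [show τ * (w * w * w * τ) * τ⁻¹ * (w * w * w * τ)⁻¹ =
            τ * w * τ⁻¹ * (τ * w * τ⁻¹) * (τ * w * τ⁻¹) * (w * w * w)⁻¹ by group, hτs, ← hwi, inv_inv]
          calc w⁻¹ * w⁻¹ * w⁻¹ * w = (w * w)⁻¹ := by group
            _ = w * w := hwwi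
      exact odd_of_mem_core h2 (by rw [h3, h.ot])
    refine ⟨o, mem_sideA_iff.2 ⟨ho, ?_⟩, s, hsU, hg'⟩
    have h4 : τ * s * τ⁻¹ = s := by
      rcases (hiff s).1 hsU with e | e | e | e <;> rw [e]
      · group
      · rw [← h.commute_tτ.eq, mul_inv_cancel_right]
      · group
      · rw [← mul_assoc, ← h.commute_tτ.eq]; group
    rw [h4, mul_inv_cancel, inv_mul_eq_one] at h1
    exact mul_inv_eq_iff_eq_mul.1 h1

/-- `w` inverts a non-trivial element of `sideA`. -/
theorem w_not_mem (h : Hyp w τ) (hA : sideA w τ ≠ ⊥) :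
    w ∉ Subgroup.centralizer (sideA w τ : Set G) := fun hw => by
  obtain ⟨a, ha, ha1⟩ := (sideA w τ).ne_bot_iff_exists_ne_one.1 hA |> fun ⟨a, ha⟩ =>
    (⟨a.1, a.2, fun e => ha (Subtype.ext e)⟩ : ∃ a ∈ sideA w τ, a ≠ 1)
  refine ha1 (eq_one_of_sq (odd_of_mem_core (mem_sideA_iff.1 ha).1) ?_)
  have h1 := h.inverts (mem_sideA_iff.1 ha).1
  rw [← Subgroup.mem_centralizer_iff.1 hw a ha, mul_inv_cancel_right] at h1
  nth_rw 1 [h1]
  exact inv_mul_cancel a

theorem τ_mem (h : Hyp w τ) : τ ∈ Subgroup.centralizer (sideA w τ : Set G) := by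
  rw [Subgroup.mem_centralizer_iff]
  exact fun a ha => (mem_sideA_iff.1 ha).2.eq.symm

theorem t_mem (h : Hyp w τ) : w * w ∈ Subgroup.centralizer (sideA w τ : Set G) := by
  rw [Subgroup.mem_centralizer_iff]
  exact fun a ha => (commute_of_mem_core (mem_sideA_iff.1 ha).1).eq.symm

theorem core_le (h : Hyp w τ) : core w ≤ Subgroup.centralizer (sideA w τ : Set G) := fun o ho => by
  rw [Subgroup.mem_centralizer_iff]
  exact fun a ha => (h.core_comm (mem_sideA_iff.1 ha).1 ho).eq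

theorem four_le (h : Hyp w τ) {U : Subgroup G}
    (hiff : ∀ g, g ∈ U ↔ g = 1 ∨ g = w * w ∨ g = τ ∨ g = w * w * τ) :
    U ≤ Subgroup.centralizer (sideA w τ : Set G) := fun g hg => by
  rcases (hiff g).1 hg with rfl | rfl | rfl | rfl
  exacts [one_mem _, h.t_mem, h.τ_mem, mul_mem h.t_mem h.τ_mem]

theorem card_cent_inf (h : Hyp w τ) (hA : sideA w τ ≠ ⊥) :
    Nat.card ↥(Subgroup.centralizer (sideA w τ : Set G) ⊓ Subgroup.centralizer ({w * w} : Set G)) =
      4 * (Nat.card (sideA w τ) * Nat.card (sideB w τ)) := by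
  obtain ⟨U, hU, ⟨S, d, hUS⟩, hiff⟩ := h.exists_four
  rw [← h.card_core, card_eq_mul (A := core w) (B := U), hU.card_four, mul_comm]
  · exact fun x hx => ⟨h.core_le hx, Subgroup.mem_centralizer_singleton_iff.2
      (commute_of_mem_core hx).eq.symm⟩
  · refine fun x hx => ⟨h.four_le hiff hx, Subgroup.mem_centralizer_singleton_iff.2 ?_⟩
    have := d.z_comm (hUS hx)
    rw [zpow_half] at this
    exact this.symm
  · exact fun x hx hxU => eq_one_of_sq (odd_of_mem_core hx)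
      (congrArg Subtype.val (IsKleinFour.mul_self (⟨x, hxU⟩ : U)))
  · rintro g ⟨hgA, hgt⟩
    obtain ⟨o, ho, i, e⟩ := h.exists_decomp
      (show Commute (w * w) g from (Subgroup.mem_centralizer_singleton_iff.1 hgt).symm)
    set s := o⁻¹ * g with hs
    refine ⟨o, ho, s, ?_, by rw [hs, mul_inv_cancel_left]⟩
    have hsA : s ∈ Subgroup.centralizer (sideA w τ : Set G) := mul_mem (inv_mem (h.core_le ho)) hgA
    rcases e with rfl | rfl
    · rw [hs, inv_mul_cancel_left] at hsA ⊢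
      rcases h.zpow_even_or_odd i with (h1 | h1) | (h1 | h1) <;> rw [h1] at hsA ⊢
      · exact one_mem _
      · exact (hiff _).2 (by simp)
      · exact absurd hsA (h.w_not_mem hA)
      · exact absurd (by
          have := mul_mem (inv_mem h.t_mem) hsA
          rwa [inv_mul_cancel_left] at this) (h.w_not_mem hA)
    · rw [hs, inv_mul_cancel_left] at hsA ⊢
      have hsA' : w ^ i ∈ Subgroup.centralizer (sideA w τ : Set G) := by
        simpa using mul_mem hsA (inv_mem h.τ_mem)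
      rcases h.zpow_even_or_odd i with (h1 | h1) | (h1 | h1) <;> rw [h1] at hsA' ⊢
      · exact (hiff _).2 (by simp)
      · exact (hiff _).2 (by simp)
      · exact absurd hsA' (h.w_not_mem hA)
      · exact absurd (by
          have := mul_mem (inv_mem h.t_mem) hsA'
          rwa [inv_mul_cancel_left] at this) (h.w_not_mem hA)

/-- The involution is fused with `τ` and with `tτ` inside the centraliser of `sideA`. -/
theorem fused (h : Hyp w τ) :
    (∃ k ∈ Subgroup.centralizer (sideA w τ : Set G), k * (w * w) * k⁻¹ = τ) ∧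
      ∃ k ∈ Subgroup.centralizer (sideA w τ : Set G), k * (w * w) * k⁻¹ = w * w * τ := by
  obtain ⟨U, hU, ⟨S, d, hUS⟩, hiff⟩ := h.exists_four
  obtain ⟨g, hg, hne⟩ := DihFusion.move_of_fused d
    (fun i => h.one _ (d.orderOf_refl i)) hU hUS
  rw [zpow_half] at hne
  have htU : w * w ∈ U := (hiff _).2 (by simp)
  have hUm : ∀ {a : G}, a ∈ U → g * a * g⁻¹ ∈ U := fun {a} ha =>
    (Subgroup.mem_normalizer_iff.1 hg a).1 ha
  have hUm' : ∀ {a : G}, a ∈ U → g⁻¹ * a * g ∈ U := fun {a} ha => by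
    have := (Subgroup.mem_normalizer_iff.1 (inv_mem hg) a).1 ha
    rwa [inv_inv] at this
  -- `g⁻¹` normalises `sideA`
  have hgA : ∀ a ∈ sideA w τ, g⁻¹ * a * g ∈ sideA w τ := by
    intro a ha
    have hcom : ∀ u ∈ U, Commute (g⁻¹ * a * g) u := fun u hu => by
      have h1 : Commute a (g * u * g⁻¹) :=
        (Subgroup.mem_centralizer_iff.1 (h.four_le hiff (hUm hu)) a ha)
      have h2 := (Commute.conj_iff g⁻¹).2 h1
      rwa [inv_inv, show g⁻¹ * (g * u * g⁻¹) * g = u by group] at h2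
    refine mem_sideA_iff.2 ⟨h.mem_core (hcom _ htU).symm ?_, (hcom _ ((hiff _).2 (by simp))).symm⟩
    rw [show g⁻¹ * a * g = g⁻¹ * a * g⁻¹⁻¹ by group, orderOf_conj]
    exact odd_of_mem_core (mem_sideA_iff.1 ha).1
  set k := g * w * g⁻¹ * w⁻¹ with hk
  have hkA : k ∈ Subgroup.centralizer (sideA w τ : Set G) := by
    rw [Subgroup.mem_centralizer_iff]
    intro a ha
    have e1 : w⁻¹ * a * w = a⁻¹ := by
      have h1 := h.inverts ((core w).inv_mem (mem_sideA_iff.1 ha).1)
      rw [inv_inv] at h1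
      calc w⁻¹ * a * w = w⁻¹ * (w * a⁻¹ * w⁻¹) * w := by rw [h1]
        _ = a⁻¹ := by group
    have e2 := h.inverts ((core w).inv_mem (mem_sideA_iff.1 (hgA a ha)).1)
    rw [inv_inv] at e2
    have e3 : k * a * k⁻¹ = a := by
      calc k * a * k⁻¹ = g * (w * (g⁻¹ * (w⁻¹ * a * w) * g) * w⁻¹) * g⁻¹ := by rw [hk]; group
        _ = g * (w * (g⁻¹ * a * g)⁻¹ * w⁻¹) * g⁻¹ := by rw [e1]; group
        _ = a := by rw [e2]; group
    exact (mul_inv_eq_iff_eq_mul.1 e3).symm
  have hw1 : ∀ u, u = τ ∨ u = w * w * τ → w * u * w⁻¹ = w * w * u := by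
    intro u hu
    rcases hu with hu | hu <;> rw [hu]
    · have : τ * w⁻¹ = w * τ := by
        have := h.τw
        calc τ * w⁻¹ = w * (w⁻¹ * τ) * w⁻¹ := by group
          _ = w * τ := by rw [← this]; group
      rw [mul_assoc, this, ← mul_assoc]
    · have : τ * w⁻¹ = w * τ := by
        have := h.τw
        calc τ * w⁻¹ = w * (w⁻¹ * τ) * w⁻¹ := by group
          _ = w * τ := by rw [← this]; group
      calc w * (w * w * τ) * w⁻¹ = w * w * w * (τ * w⁻¹) := by group
        _ = w * w * (w * w * τ) := by rw [this]; group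
  have hcase : ∀ {u : G}, u ∈ U → u ≠ 1 → u ≠ w * w → u = τ ∨ u = w * w * τ := fun {u} hu h1 h2 => by
    rcases (hiff u).1 hu with e | e | e | e
    exacts [absurd e h1, absurd e h2, Or.inl e, Or.inr e]
  have ht1 : w * w ≠ 1 := fun e => by
    have := h.ot; rw [e, orderOf_one] at this; omega
  have hs := hcase (hUm' htU) (fun e => ht1 (by
      calc w * w = g * (g⁻¹ * (w * w) * g) * g⁻¹ := by group
        _ = 1 := by rw [e]; group))
    (fun e => hne (by
      calc g * (w * w) * g⁻¹ = g * (g⁻¹ * (w * w) * g) * g⁻¹ := by rw [e]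
        _ = w * w := by group))
  have hu := hcase (hUm htU) (fun e => ht1 (conj_eq_one_iff.1 e)) hne
  have hkt : k * (w * w) * k⁻¹ = g * (w * w) * g⁻¹ * (w * w) := by
    have e1 : w⁻¹ * (w * w) * w = w * w := by group
    calc k * (w * w) * k⁻¹ = g * (w * (g⁻¹ * (w⁻¹ * (w * w) * w) * g) * w⁻¹) * g⁻¹ := by
          rw [hk]; group
      _ = g * (w * w * (g⁻¹ * (w * w) * g)) * g⁻¹ := by rw [e1, hw1 _ hs]
      _ = g * (w * w) * g⁻¹ * (w * w) := by group
  have hk2 : w * k * w⁻¹ ∈ Subgroup.centralizer (sideA w τ : Set G) := by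
    rw [Subgroup.mem_centralizer_iff]
    intro a ha
    have hai : a⁻¹ ∈ sideA w τ := inv_mem ha
    have e := h.inverts ((core w).inv_mem (mem_sideA_iff.1 ha).1)
    rw [inv_inv] at e
    have h1 : Commute (w * a⁻¹ * w⁻¹) (w * k * w⁻¹) :=
      (Commute.conj_iff w).2 (Subgroup.mem_centralizer_iff.1 hkA _ hai)
    rw [e] at h1
    exact h1.eq
  have hk2t : w * k * w⁻¹ * (w * w) * (w * k * w⁻¹)⁻¹ = w * (k * (w * w) * k⁻¹) * w⁻¹ := by group
  rcases hu with e | e
  · have e1 : k * (w * w) * k⁻¹ = w * w * τ := by rw [hkt, e, h.commute_tτ.eq]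
    refine ⟨⟨_, hk2, ?_⟩, _, hkA, e1⟩
    rw [hk2t, e1, hw1 _ (Or.inr rfl), ← mul_assoc, h.tt, one_mul]
  · have e1 : k * (w * w) * k⁻¹ = τ := by
      rw [hkt, e, mul_assoc, ← h.commute_tτ.eq, ← mul_assoc, h.tt, one_mul]
    refine ⟨⟨_, hkA, e1⟩, _, hk2, ?_⟩
    rw [hk2t, e1, hw1 _ (Or.inl rfl)]

end Hyp

end CfsgLib.CentFour
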